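import Mathlib

/-!
# Centralizers `R × S₃` (helper733)

`six_conj` : elements of the same order of a nonabelian group of order 6 are conjugate.
`classes_of` : the hypothesis on classes of `H849.OZ.mod_of_classes` from the quotient `C(z) / ⟨z⟩`.
-/

set_option autoImplicit false

open Subgroup

namespace Cfsg.Agent.H733.OZ

universe u v

section six

variable {Q : Type u} [Group Q]

theorem exists_conj_mem [Finite Q] {r : ℕ} (hr : r.Prime) (hsq : ¬ r ^ 2 ∣ Nat.card Q) {a b : Q}
    (ha : orderOf a = r) (hb : orderOf b = r) : ∃ g : Q, g * a * g⁻¹ ∈ zpowers b := by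
  have hf : Fact r.Prime := ⟨hr⟩
  have hfac : (Nat.card Q).factorization r = 1 := by
    have hN : Nat.card Q ≠ 0 := Nat.card_pos.ne'
    have h1 := (hr.pow_dvd_iff_le_factorization hN (k := 1)).1 (by
      rw [pow_one, ← ha]
      exact orderOf_dvd_natCard a)
    have h2 := (hr.pow_dvd_iff_le_factorization hN).not.1 hsq
    omega
  obtain ⟨P, hP⟩ : ∃ P : Sylow r Q, (P : Subgroup Q) = zpowers a :=
    ⟨Sylow.ofCard (zpowers a) (by rw [hfac, Nat.card_zpowers, ha, pow_one]), rfl⟩
  obtain ⟨P', hP'⟩ : ∃ P : Sylow r Q, (P : Subgroup Q) = zpowers b :=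
    ⟨Sylow.ofCard (zpowers b) (by rw [hfac, Nat.card_zpowers, hb, pow_one]), rfl⟩
  obtain ⟨g, hg⟩ := MulAction.exists_smul_eq Q P P'
  refine ⟨g, ?_⟩
  have h1 : a ∈ (P : Subgroup Q) := hP ▸ mem_zpowers a
  have h2 : g * a * g⁻¹ ∈ ((g • P : Sylow r Q) : Subgroup Q) := by
    rw [Sylow.coe_subgroup_smul]
    exact Subgroup.smul_mem_pointwise_smul a (MulAut.conj g) _ h1
  rw [hg, hP'] at h2
  exact h2

/-- an element of order 3 of a nonabelian group of order 6 is inverted -/
theorem exists_inv (h6 : Nat.card Q = 6) (hne : ∃ a b : Q, a * b ≠ b * a) {b : Q} (hb : orderOf b = 3) :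
    ∃ g : Q, g * b * g⁻¹ = b⁻¹ := by
  have hfin : Finite Q := Nat.finite_of_card_ne_zero (by rw [h6]; norm_num)
  have hidx : (zpowers b).index = 2 := by
    have h1 := (zpowers b).card_mul_index
    rw [Nat.card_zpowers, hb, h6] at h1
    omega
  have hn : (zpowers b).Normal := normal_of_index_eq_two hidx
  by_contra hno
  push Not at hno
  have hcen : ∀ g : Q, g * b = b * g := by
    intro g
    have h1 : g * b * g⁻¹ ∈ zpowers b := hn.conj_mem b (mem_zpowers b) g
    have hfo : IsOfFinOrder b := isOfFinOrder_of_finite b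
    rw [← hfo.mem_powers_iff_mem_zpowers, Submonoid.mem_powers_iff] at h1
    obtain ⟨k, hk⟩ := h1
    rw [← pow_mod_orderOf, hb] at hk
    have h3 : k % 3 = 0 ∨ k % 3 = 1 ∨ k % 3 = 2 := by omega
    rcases h3 with h3 | h3 | h3
    · rw [h3, pow_zero] at hk
      have h4 : b = 1 := by
        calc b = g⁻¹ * (g * b * g⁻¹) * g := by group
          _ = 1 := by rw [← hk]; group
      rw [h4, orderOf_one] at hb
      norm_num at hb
    · rw [h3, pow_one] at hk
      calc g * b = (g * b * g⁻¹) * g := by group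
        _ = b * g := by rw [← hk]
    · exfalso
      apply hno g
      rw [← hk, h3, eq_inv_iff_mul_eq_one, ← pow_succ]
      exact orderOf_dvd_iff_pow_eq_one.1 (by rw [hb])
  obtain ⟨x, y, hxy⟩ := hne
  apply hxy
  have hcard : Nat.card (Q ⧸ zpowers b) = 2 := hidx
  have hcyc : IsCyclic (Q ⧸ zpowers b) := isCyclic_of_prime_card (p := 2) (hp := ⟨Nat.prime_two⟩) hcard
  have hcomm := (QuotientGroup.mk' (zpowers b)).isMulCommutative_of_isCyclic_of_ker_le_center (by
    rw [QuotientGroup.ker_mk', zpowers_le, mem_center_iff]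
    exact hcen)
  exact hcomm.is_comm.comm x y

/-- **Elements of the same order of a nonabelian group of order 6 are conjugate.** -/
theorem six_conj (h6 : Nat.card Q = 6) (hne : ∃ a b : Q, a * b ≠ b * a) {a b : Q} (hab : orderOf a = orderOf b) :
    ∃ g : Q, g * a * g⁻¹ = b := by
  have hfin : Finite Q := Nat.finite_of_card_ne_zero (by rw [h6]; norm_num)
  have hd : orderOf a ∣ 6 := h6 ▸ orderOf_dvd_natCard a
  have hcases : orderOf a = 1 ∨ orderOf a = 2 ∨ orderOf a = 3 ∨ orderOf a = 6 := by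
    clear hab
    generalize orderOf a = n at hd ⊢
    have h1 : n ≤ 6 := Nat.le_of_dvd (by norm_num) hd
    interval_cases n <;> revert hd <;> decide
  rcases hcases with h | h | h | h
  · have h1 := orderOf_eq_one_iff.1 h
    have h2 := orderOf_eq_one_iff.1 (hab ▸ h)
    exact ⟨1, by rw [h1, h2]; group⟩
  · obtain ⟨g, hg⟩ := exists_conj_mem Nat.prime_two (by rw [h6]; norm_num) h (hab ▸ h)
    refine ⟨g, ?_⟩
    have hfo : IsOfFinOrder b := isOfFinOrder_of_finite b
    rw [← hfo.mem_powers_iff_mem_zpowers, Submonoid.mem_powers_iff] at hg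
    obtain ⟨k, hk⟩ := hg
    rw [← pow_mod_orderOf, ← hab, h] at hk
    have h3 : k % 2 = 0 ∨ k % 2 = 1 := by omega
    rcases h3 with h3 | h3
    · rw [h3, pow_zero] at hk
      have h4 : a = 1 := by
        calc a = g⁻¹ * (g * a * g⁻¹) * g := by group
          _ = 1 := by rw [← hk]; group
      rw [h4, orderOf_one] at h
      norm_num at h
    · rw [h3, pow_one] at hk
      exact hk.symm
  · have hb : orderOf b = 3 := hab ▸ h
    obtain ⟨g, hg⟩ := exists_conj_mem Nat.prime_three (by rw [h6]; norm_num) h hb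
    have hfo : IsOfFinOrder b := isOfFinOrder_of_finite b
    rw [← hfo.mem_powers_iff_mem_zpowers, Submonoid.mem_powers_iff] at hg
    obtain ⟨k, hk⟩ := hg
    rw [← pow_mod_orderOf, hb] at hk
    have h3 : k % 3 = 0 ∨ k % 3 = 1 ∨ k % 3 = 2 := by omega
    rcases h3 with h3 | h3 | h3
    · rw [h3, pow_zero] at hk
      have h4 : a = 1 := by
        calc a = g⁻¹ * (g * a * g⁻¹) * g := by group
          _ = 1 := by rw [← hk]; group
      rw [h4, orderOf_one] at h
      norm_num at h
    · exact ⟨g, by rw [h3, pow_one] at hk; exact hk.symm⟩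
    · obtain ⟨c, hc⟩ := exists_inv h6 hne hb
      have h4 : g * a * g⁻¹ = b⁻¹ := by
        rw [← hk, h3, eq_inv_iff_mul_eq_one, ← pow_succ]
        exact orderOf_dvd_iff_pow_eq_one.1 (by rw [hb])
      refine ⟨c * g, ?_⟩
      calc c * g * a * (c * g)⁻¹ = c * (g * a * g⁻¹) * c⁻¹ := by group
        _ = (c * b * c⁻¹)⁻¹ := by rw [h4]; group
        _ = b := by rw [hc, inv_inv]
  · exfalso
    obtain ⟨x, y, hxy⟩ := hne
    apply hxy
    have h1 : zpowers a = ⊤ := by
      refine eq_top_of_card_eq _ ?_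
      rw [Nat.card_zpowers, h, h6]
    obtain ⟨i, hi⟩ : x ∈ zpowers a := h1 ▸ mem_top x
    obtain ⟨j, hj⟩ : y ∈ zpowers a := h1 ▸ mem_top y
    change a ^ i = x at hi
    change a ^ j = y at hj
    rw [← hi, ← hj, ← zpow_add, ← zpow_add, add_comm]

end six

/-- **The classes of the `r`-regular elements of `C(z)`** from the quotient `C(z) / ⟨z⟩`. -/
theorem classes_of {G : Type u} [Group G] [Finite G] {z : G} {r : ℕ} (hr : r.Prime) (hz : orderOf z = r)
    {Q : Type v} [Group Q] (π : centralizer ({z} : Set G) →* Q) (hs : Function.Surjective π)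
    (hk : ∀ k, π k = 1 → (k : G) ∈ zpowers z) (hcl : ∀ a b : Q, orderOf a = orderOf b → ∃ g : Q, g * a * g⁻¹ = b)
    (y y' : G) (hy : z * y = y * z) (hy' : z * y' = y' * z) (hyr : ¬ r ∣ orderOf y) (hyy : orderOf y = orderOf y') :
    ∃ k : G, z * k = k * z ∧ k * y * k⁻¹ = y' := by
  -- elements of `⟨z⟩` of order prime to `r`
  have hone : ∀ w ∈ zpowers z, ∀ m : ℕ, ¬ r ∣ m → w ^ m = 1 → w = 1 := by
    intro w hw m hm hwm
    rw [← orderOf_eq_one_iff, ← Nat.dvd_one]
    have h1 : orderOf w ∣ r := by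
      have := orderOf_dvd_natCard (⟨w, hw⟩ : zpowers z)
      rwa [orderOf_mk, Nat.card_zpowers, hz] at this
    have h2 : orderOf w ∣ m := orderOf_dvd_of_pow_eq_one hwm
    have h3 : Nat.Coprime r m := (hr.coprime_iff_not_dvd).2 hm
    exact (Nat.dvd_gcd h1 h2).trans (dvd_of_eq h3)
  set Y : centralizer ({z} : Set G) := ⟨y, mem_centralizer_singleton_iff.2 hy.symm⟩ with hY
  set Y' : centralizer ({z} : Set G) := ⟨y', mem_centralizer_singleton_iff.2 hy'.symm⟩ with hY'
  have hord : ∀ W : centralizer ({z} : Set G), ¬ r ∣ orderOf (W : G) → orderOf (π W) = orderOf (W : G) := by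
    intro W hW
    refine Nat.dvd_antisymm ?_ ?_
    · rw [orderOf_coe]
      exact orderOf_map_dvd π W
    · apply orderOf_dvd_of_pow_eq_one
      have h1 : π (W ^ orderOf (π W)) = 1 := by rw [map_pow, pow_orderOf_eq_one]
      have h2 := hk _ h1
      rw [SubmonoidClass.coe_pow] at h2
      refine hone _ h2 _ hW ?_
      rw [← pow_mul, mul_comm, pow_mul, pow_orderOf_eq_one, one_pow]
  obtain ⟨c, hc⟩ := hcl (π Y) (π Y') (by
    rw [hord Y hyr, hord Y' (hyy ▸ hyr)]
    exact hyy)
  obtain ⟨k, rfl⟩ := hs c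
  have hkz : z * (k : G) = k * z := (mem_centralizer_singleton_iff.1 k.2).symm
  refine ⟨k, hkz, ?_⟩
  have h1 : π (Y'⁻¹ * (k * Y * k⁻¹)) = 1 := by
    rw [map_mul, map_mul, map_mul, map_inv, map_inv, hc, inv_mul_cancel]
  have h2 := hk _ h1
  set w : G := ((Y'⁻¹ * (k * Y * k⁻¹) : centralizer ({z} : Set G)) : G) with hw
  have hwe : w = y'⁻¹ * ((k : G) * y * (k : G)⁻¹) := rfl
  have h3 : (k : G) * y * (k : G)⁻¹ = y' * w := by rw [hwe]; group
  have hcw : Commute y' w := by
    obtain ⟨i, hi⟩ := h2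
    change z ^ i = w at hi
    rw [← hi]
    exact ((show Commute z y' from hy').zpow_left i).symm
  have h4 : w ^ orderOf y = 1 := by
    have h5 : ((k : G) * y * (k : G)⁻¹) ^ orderOf y = 1 := by rw [conj_pow, pow_orderOf_eq_one]; group
    rw [h3, hcw.mul_pow, hyy, pow_orderOf_eq_one, one_mul] at h5
    rw [hyy]
    exact h5
  have h5 := hone w h2 _ hyr h4
  rw [h3, h5, mul_one]

/-- transport along an isomorphism -/
theorem classes_congr {G : Type u} [Group G] {H : Type v} [Group H] (f : G ≃* H) {z : G} {r : ℕ}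
    (hcl : ∀ y y' : H, f z * y = y * f z → f z * y' = y' * f z → ¬ r ∣ orderOf y → orderOf y = orderOf y' →
      ∃ k : H, f z * k = k * f z ∧ k * y * k⁻¹ = y')
    (y y' : G) (hy : z * y = y * z) (hy' : z * y' = y' * z) (hyr : ¬ r ∣ orderOf y) (hyy : orderOf y = orderOf y') :
    ∃ k : G, z * k = k * z ∧ k * y * k⁻¹ = y' := by
  obtain ⟨k, hk, hky⟩ := hcl (f y) (f y') (by rw [← map_mul, hy, map_mul]) (by rw [← map_mul, hy', map_mul])
    (by rwa [MulEquiv.orderOf_eq]) (by rw [MulEquiv.orderOf_eq, MulEquiv.orderOf_eq, hyy])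
  refine ⟨f.symm k, ?_, ?_⟩
  · apply f.injective
    rw [map_mul, map_mul, f.apply_symm_apply, hk]
  · apply f.injective
    rw [map_mul, map_mul, map_inv, f.apply_symm_apply, hky]

end Cfsg.Agent.H733.OZ
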