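import Mathlib

/-!
# The arithmetic of the row of the Monster of S4842 (helper733)

A divisor `d` of the order of the Monster which is divisible by the full power of at most one
of the primes 41, 59, 71 and of no other prime and which is `1` or `-1` modulo 31, 47, 59, 71
(and 17, 19, 23, 29, 41, if smaller than the exceptional prime) is `1` (`none_1`, `none_41`,
`none_59`, `none_71`).
-/

set_option autoImplicit false

namespace Cfsg.Agent.H733.OZ.Mon

/-- the order of the Monster -/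
def NM : ℕ := 808017424794512875886459904961710757005754368000000000

/-- discrete logarithms modulo 47 to the base 2, up to sign -/
def T47 : ℕ := 0x58454e0cb5083460902924d11c930f1410453cc24745348a40218d2142c3395116000

def lg (m : ℕ) : ℕ := T47 / 64 ^ m % 64

theorem lg_spec : ∀ m < 47, ∀ a < 46, (2 ^ a * m % 47 = 1 ∨ 2 ^ a * m % 47 = 46) →
    a = lg m ∨ a = lg m + 23 := by
  decide +kernel

/-- `d` is `1` or `-1` modulo the members of the list -/
def okm (L : List ℕ) (d : ℕ) : Bool := L.all fun r => Nat.beq (d % r) 1 || Nat.beq (d % r) (r - 1)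

def chk (o : ℕ) (L : List ℕ) : Bool :=
  (List.range 20).all fun b => (List.range 9).all fun c => (List.range 6).all fun e =>
    (List.range 2).all fun f => (List.range 3).all fun g =>
      (fun m => (fun a => (!(okm L (2 ^ a * m)) || Nat.beq (2 ^ a * m) 1) && !(okm L (2 ^ (a + 23) * m)))
        (lg (m % 47))) (o * (3 ^ b * 5 ^ c * 7 ^ e * 11 ^ f * 13 ^ g))

theorem chk_1 : chk 1 [59, 71, 31] = true := by decide +kernel
theorem chk_41 : chk 41 [59, 71, 31, 17] = true := by decide +kernel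
theorem chk_59 : chk 59 [71, 31, 29] = true := by decide +kernel
theorem chk_71 : chk 71 [59, 31, 29, 23, 19, 17, 41] = true := by decide +kernel

theorem okm_of {L : List ℕ} {d : ℕ} (h : ∀ r ∈ L, d % r = 1 ∨ d % r = r - 1) : okm L d = true := by
  rw [okm, List.all_eq_true]
  intro r hr
  rw [Bool.or_eq_true]
  rcases h r hr with h1 | h1
  · exact Or.inl (by rw [h1]; rfl)
  · exact Or.inr (by rw [h1]; exact Nat.beq_refl _)

theorem chk_spec {o : ℕ} {L : List ℕ} (h : chk o L = true) {a b c e f g d : ℕ} (ha : a < 46) (hb : b < 20)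
    (hc : c < 9) (he : e < 6) (hf : f < 2) (hg : g < 3)
    (hd : d = 2 ^ a * (o * (3 ^ b * 5 ^ c * 7 ^ e * 11 ^ f * 13 ^ g)))
    (h47 : d % 47 = 1 ∨ d % 47 = 46) (hL : ∀ r ∈ L, d % r = 1 ∨ d % r = r - 1) : d = 1 := by
  simp only [chk, List.all_eq_true, List.mem_range] at h
  have h1 := h b hb c hc e he f hf g hg
  set m := o * (3 ^ b * 5 ^ c * 7 ^ e * 11 ^ f * 13 ^ g) with hm
  rw [Bool.and_eq_true, Bool.or_eq_true] at h1
  have h2 : 2 ^ a * (m % 47) % 47 = 1 ∨ 2 ^ a * (m % 47) % 47 = 46 := by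
    rw [Nat.mul_mod_mod, ← hd]
    exact h47
  have hok := okm_of hL
  rcases lg_spec (m % 47) (Nat.mod_lt _ (by norm_num)) a ha h2 with h3 | h3
  · rw [hd, h3] at hok
    rcases h1.1 with h4 | h4
    · rw [hok] at h4
      exact absurd h4 (by decide)
    · rw [hd, h3]
      exact Nat.eq_of_beq_eq_true h4
  · rw [hd, h3] at hok
    have h4 := h1.2
    rw [hok] at h4
    exact absurd h4 (by decide)

theorem dvd_of {d p n M : ℕ} (hp : p.Prime) (h : d ∣ p ^ (n + 1) * M) (hn : ¬ p ^ (n + 1) ∣ d) :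
    d ∣ p ^ n * M := by
  obtain ⟨a, b, ha, hb, hab⟩ := (Nat.dvd_mul).1 h
  obtain ⟨i, hi, rfl⟩ := (Nat.dvd_prime_pow hp).1 ha
  rw [← hab]
  refine Nat.mul_dvd_mul (pow_dvd_pow p ?_) hb
  by_contra hlt
  have h1 : i = n + 1 := by omega
  exact hn (h1 ▸ hab ▸ dvd_mul_right _ _)

theorem dvd_of_one {d p M : ℕ} (hp : p.Prime) (h : d ∣ p * M) (hn : ¬ p ∣ d) : d ∣ M :=
  (Nat.Coprime.dvd_of_dvd_mul_left ((hp.coprime_iff_not_dvd.2 hn).symm) h)

/-- the divisibility conditions -/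
structure Div (d : ℕ) : Prop where
  dvd : d ∣ NM
  n2 : ¬ 2 ^ 46 ∣ d
  n3 : ¬ 3 ^ 20 ∣ d
  n5 : ¬ 5 ^ 9 ∣ d
  n7 : ¬ 7 ^ 6 ∣ d
  n11 : ¬ 11 ^ 2 ∣ d
  n13 : ¬ 13 ^ 3 ∣ d
  n17 : ¬ 17 ^ 1 ∣ d
  n19 : ¬ 19 ^ 1 ∣ d
  n23 : ¬ 23 ^ 1 ∣ d
  n29 : ¬ 29 ^ 1 ∣ d
  n31 : ¬ 31 ^ 1 ∣ d
  n47 : ¬ 47 ^ 1 ∣ d

theorem Div.small {d : ℕ} (h : Div d) :
    d ∣ 41 * (59 * (71 * (2 ^ 45 * (3 ^ 19 * (5 ^ 8 * (7 ^ 5 * (11 ^ 1 * 13 ^ 2))))))) := by
  have h2 := dvd_of (n := 45) (M := 11482618231106483731969943632999939453125) Nat.prime_two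
    (h.dvd.trans (dvd_of_eq (by norm_num [NM]))) h.n2
  have h3 := dvd_of (n := 19) (M := 115868567119145041151407271217987584000000000) Nat.prime_three
    (h2.trans (dvd_of_eq (by norm_num))) h.n3
  have h5 := dvd_of (n := 8) (M := 68950820249131765408977911890065984597824372736) Nat.prime_five
    (h3.trans (dvd_of_eq (by norm_num))) h.n5
  have h7 := dvd_of (p := 7) (n := 5) (M := 228934492939311816189529845830028519014400000000) (by norm_num)
    (h5.trans (dvd_of_eq (by norm_num))) h.n7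
  have h11 := dvd_of (p := 11) (n := 1) (M := 31799190271330691691714281974093300157644800000000) (by norm_num)
    (h7.trans (dvd_of_eq (by norm_num))) h.n11
  have h13 := dvd_of (p := 13) (n := 2) (M := 159213060074937464091423350803380201062400000000) (by norm_num)
    (h11.trans (dvd_of_eq (by norm_num))) h.n13
  have h17 := dvd_of (p := 17) (n := 0) (M := 1582765126627319495967679193280661998796800000000) (by norm_num)
    (h13.trans (dvd_of_eq (by norm_num))) h.n17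
  have h19 := dvd_of (p := 19) (n := 0) (M := 83303427717227341893035747014771684147200000000) (by norm_num)
    (h17.trans (dvd_of_eq (by norm_num))) h.n19
  have h23 := dvd_of (p := 23) (n := 0) (M := 3621888161618580082305902044120508006400000000) (by norm_num)
    (h19.trans (dvd_of_eq (by norm_num))) h.n23
  have h29 := dvd_of (p := 29) (n := 0) (M := 124892695228226899389858691176569241600000000) (by norm_num)
    (h23.trans (dvd_of_eq (by norm_num))) h.n29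
  have h31 := dvd_of (p := 31) (n := 0) (M := 4028796620265383851285764231502233600000000) (by norm_num)
    (h29.trans (dvd_of_eq (by norm_num))) h.n31
  have h47 := dvd_of (p := 47) (n := 0) (M := 85719077026923060665654558117068800000000) (by norm_num)
    (h31.trans (dvd_of_eq (by norm_num))) h.n47
  exact h47.trans (dvd_of_eq (by norm_num))

theorem exists_exp {m : ℕ} (h : m ∣ 2 ^ 45 * (3 ^ 19 * (5 ^ 8 * (7 ^ 5 * (11 ^ 1 * 13 ^ 2))))) :
    ∃ a b c e f g : ℕ, a < 46 ∧ b < 20 ∧ c < 9 ∧ e < 6 ∧ f < 2 ∧ g < 3 ∧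
      m = 2 ^ a * (3 ^ b * 5 ^ c * 7 ^ e * 11 ^ f * 13 ^ g) := by
  obtain ⟨x1, y1, hx1, hy1, rfl⟩ := (Nat.dvd_mul).1 h
  obtain ⟨x2, y2, hx2, hy2, rfl⟩ := (Nat.dvd_mul).1 hy1
  obtain ⟨x3, y3, hx3, hy3, rfl⟩ := (Nat.dvd_mul).1 hy2
  obtain ⟨x4, y4, hx4, hy4, rfl⟩ := (Nat.dvd_mul).1 hy3
  obtain ⟨x5, y5, hx5, hy5, rfl⟩ := (Nat.dvd_mul).1 hy4
  obtain ⟨a, ha, rfl⟩ := (Nat.dvd_prime_pow Nat.prime_two).1 hx1
  obtain ⟨b, hb, rfl⟩ := (Nat.dvd_prime_pow Nat.prime_three).1 hx2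
  obtain ⟨c, hc, rfl⟩ := (Nat.dvd_prime_pow Nat.prime_five).1 hx3
  obtain ⟨e, he, rfl⟩ := (Nat.dvd_prime_pow (by norm_num : Nat.Prime 7)).1 hx4
  obtain ⟨f, hf, rfl⟩ := (Nat.dvd_prime_pow (by norm_num : Nat.Prime 11)).1 hx5
  obtain ⟨g, hg, rfl⟩ := (Nat.dvd_prime_pow (by norm_num : Nat.Prime 13)).1 hy5
  exact ⟨a, b, c, e, f, g, by omega, by omega, by omega, by omega, by omega, by omega, by ring⟩

variable {d : ℕ}

theorem one_of {o m : ℕ} {L : List ℕ} (hc : chk o L = true)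
    (hm : m ∣ 2 ^ 45 * (3 ^ 19 * (5 ^ 8 * (7 ^ 5 * (11 ^ 1 * 13 ^ 2))))) (hd : d = o * m)
    (h47 : d % 47 = 1 ∨ d % 47 = 46) (hL : ∀ r ∈ L, d % r = 1 ∨ d % r = r - 1) : d = 1 := by
  obtain ⟨a, b, c, e, f, g, ha, hb, hcc, he, hf, hg, rfl⟩ := exists_exp hm
  exact chk_spec hc ha hb hcc he hf hg (hd.trans (by ring)) h47 hL

theorem not_dvd_of {r : ℕ} (hr : 1 < r) (h : d % r = 1 ∨ d % r = r - 1) : ¬ r ∣ d := by
  intro h1
  have h2 := Nat.mod_eq_zero_of_dvd h1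
  omega

/-- no exceptional prime -/
theorem none_1 (D : Div d) (h41 : ¬ 41 ∣ d) (h59 : d % 59 = 1 ∨ d % 59 = 58) (h71 : d % 71 = 1 ∨ d % 71 = 70)
    (h47 : d % 47 = 1 ∨ d % 47 = 46) (h31 : d % 31 = 1 ∨ d % 31 = 30) : d = 1 := by
  have h1 := dvd_of_one (p := 41) (by norm_num) D.small h41
  have h2 := dvd_of_one (p := 59) (by norm_num) h1 (not_dvd_of (by norm_num) h59)
  have h3 := dvd_of_one (p := 71) (by norm_num) h2 (not_dvd_of (by norm_num) h71)
  refine one_of chk_1 h3 (one_mul d).symm h47 ?_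
  simp only [List.mem_cons, List.not_mem_nil, or_false, forall_eq_or_imp, forall_eq]
  exact ⟨h59, h71, h31⟩

/-- the exceptional prime 41 -/
theorem none_41 (D : Div d) (h41 : 41 ∣ d) (h59 : d % 59 = 1 ∨ d % 59 = 58) (h71 : d % 71 = 1 ∨ d % 71 = 70)
    (h47 : d % 47 = 1 ∨ d % 47 = 46) (h31 : d % 31 = 1 ∨ d % 31 = 30) (h17 : d % 17 = 1 ∨ d % 17 = 16) : d = 1 := by
  have h1 : d ∣ 59 * (71 * (41 * (2 ^ 45 * (3 ^ 19 * (5 ^ 8 * (7 ^ 5 * (11 ^ 1 * 13 ^ 2))))))) :=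
    D.small.trans (dvd_of_eq (by ring))
  have h2 := dvd_of_one (p := 59) (by norm_num) h1 (not_dvd_of (by norm_num) h59)
  have h3 := dvd_of_one (p := 71) (by norm_num) h2 (not_dvd_of (by norm_num) h71)
  obtain ⟨m, hm⟩ := h41
  refine one_of chk_41 (m := m) ?_ hm h47 ?_
  · rw [hm] at h3
    exact Nat.dvd_of_mul_dvd_mul_left (by norm_num) h3
  · simp only [List.mem_cons, List.not_mem_nil, or_false, forall_eq_or_imp, forall_eq]
    exact ⟨h59, h71, h31, h17⟩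

/-- the exceptional prime 59 -/
theorem none_59 (D : Div d) (h59 : 59 ∣ d) (h41 : d % 41 = 1 ∨ d % 41 = 40) (h71 : d % 71 = 1 ∨ d % 71 = 70)
    (h47 : d % 47 = 1 ∨ d % 47 = 46) (h31 : d % 31 = 1 ∨ d % 31 = 30) (h29 : d % 29 = 1 ∨ d % 29 = 28) : d = 1 := by
  have h1 : d ∣ 41 * (71 * (59 * (2 ^ 45 * (3 ^ 19 * (5 ^ 8 * (7 ^ 5 * (11 ^ 1 * 13 ^ 2))))))) :=
    D.small.trans (dvd_of_eq (by ring))
  have h2 := dvd_of_one (p := 41) (by norm_num) h1 (not_dvd_of (by norm_num) h41)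
  have h3 := dvd_of_one (p := 71) (by norm_num) h2 (not_dvd_of (by norm_num) h71)
  obtain ⟨m, hm⟩ := h59
  refine one_of chk_59 (m := m) ?_ hm h47 ?_
  · rw [hm] at h3
    exact Nat.dvd_of_mul_dvd_mul_left (by norm_num) h3
  · simp only [List.mem_cons, List.not_mem_nil, or_false, forall_eq_or_imp, forall_eq]
    exact ⟨h71, h31, h29⟩

/-- the exceptional prime 71 -/
theorem none_71 (D : Div d) (h71 : 71 ∣ d) (h59 : d % 59 = 1 ∨ d % 59 = 58) (h31 : d % 31 = 1 ∨ d % 31 = 30)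
    (h29 : d % 29 = 1 ∨ d % 29 = 28) (h23 : d % 23 = 1 ∨ d % 23 = 22) (h19 : d % 19 = 1 ∨ d % 19 = 18)
    (h17 : d % 17 = 1 ∨ d % 17 = 16) (h41 : d % 41 = 1 ∨ d % 41 = 40)
    (h47 : d % 47 = 1 ∨ d % 47 = 46) : d = 1 := by
  have h1 : d ∣ 41 * (59 * (71 * (2 ^ 45 * (3 ^ 19 * (5 ^ 8 * (7 ^ 5 * (11 ^ 1 * 13 ^ 2))))))) := D.small
  have h2 := dvd_of_one (p := 41) (by norm_num) h1 (not_dvd_of (by norm_num) h41)
  have h3 := dvd_of_one (p := 59) (by norm_num) h2 (not_dvd_of (by norm_num) h59)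
  obtain ⟨m, hm⟩ := h71
  refine one_of chk_71 (m := m) ?_ hm h47 ?_
  · rw [hm] at h3
    exact Nat.dvd_of_mul_dvd_mul_left (by norm_num) h3
  · simp only [List.mem_cons, List.not_mem_nil, or_false, forall_eq_or_imp, forall_eq]
    exact ⟨h59, h31, h29, h23, h19, h17, h41⟩

end Cfsg.Agent.H733.OZ.Mon
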