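import Cfsg.Agent.H733.OZ.Good
import Cfsg.Agent.H733.OZ.MSieve
import Cfsg.Agent.H849.OZ.TFive

/-!
# The row of the Monster of S4842, abstract form (helper733)

`Facts G` : the order of `G` and of some centralizers.  `no_one` : a simple group with `Facts` has no
irreducible character vanishing on exactly one conjugacy class.
-/

set_option autoImplicit false

open Cfsg Cfsg.Agent.Characters Cfsg.Agent.H686.CharKit Cfsg.Agent.H732.VZ
open Cfsg.Agent.H604.OZ (cent ne_one one_lt_deg)
open Subgroup (centralizer mem_centralizer_singleton_iff)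

namespace Cfsg.Agent.H733.OZ

universe u

section gen

variable {G : Type u} [Group G] [Finite G] {χ : IrrCharacter G} {x : G}

/-- **T4** for a prime dividing the group order once: the residue of the degree. -/
theorem mod_of_lt (h : One χ x) {r : ℕ} (hr : r.Prime) (h1 : r ∣ Nat.card G)
    (h2 : ¬ r ^ 2 ∣ Nat.card G) (hc : r < cent x) :
    charDegree (χ : G → ℂ) % r = 1 ∨ charDegree (χ : G → ℂ) % r = r - 1 := by
  have h3 := pow_dvd h (n := 1) hr (by rwa [pow_one]) h2 (by rwa [pow_one])
  rw [pow_one] at h3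
  have hd := one_lt_deg h
  set d := charDegree (χ : G → ℂ) with hdd
  have hr2 := hr.two_le
  obtain ⟨e, he⟩ : ∃ e, d = e + 1 := ⟨d - 1, by omega⟩
  have h4 : d ^ 2 - 1 = e * (d + 1) := by
    rw [he]
    have : (e + 1) ^ 2 = e * (e + 1 + 1) + 1 := by ring
    rw [this, Nat.add_sub_cancel]
  rw [h4] at h3
  rcases (hr.dvd_mul).1 h3 with h5 | h5
  · left
    obtain ⟨k, rfl⟩ := h5
    rw [he, Nat.mul_add_mod, Nat.mod_eq_of_lt (by omega)]
  · right
    obtain ⟨k, hk⟩ := h5
    obtain ⟨j, rfl⟩ : ∃ j, k = j + 1 := ⟨k - 1, by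
      rcases Nat.eq_zero_or_pos k with h0 | h0
      · rw [h0] at hk; omega
      · omega⟩
    have h6 : d = r * j + (r - 1) := by
      rw [mul_add, mul_one] at hk
      omega
    rw [h6, Nat.mul_add_mod, Nat.mod_eq_of_lt (by omega)]

theorem orderOf_le_cent (x : G) : orderOf x ≤ cent x := by
  rw [← Nat.card_zpowers]
  refine Nat.card_le_card_of_injective _ (Subgroup.inclusion_injective (H := Subgroup.zpowers x)
    (K := centralizer ({x} : Set G)) ?_)
  rw [Subgroup.zpowers_le, mem_centralizer_singleton_iff]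

/-- elements of orders `r` and `2 r` in the centralizer of an involution -/
theorem exists_two {t : G} (ht : orderOf t = 2) {r : ℕ} (hr : r.Prime) (hr2 : r ≠ 2)
    (hd : r ∣ Nat.card (centralizer ({t} : Set G))) : ∃ z : G, orderOf z = r ∧ orderOf (z * t) = r * 2 := by
  have : Fact r.Prime := ⟨hr⟩
  obtain ⟨z, hz⟩ := exists_prime_orderOf_dvd_card' (G := centralizer ({t} : Set G)) r hd
  have hz' : orderOf (z : G) = r := by rw [Subgroup.orderOf_coe, hz]
  refine ⟨z, hz', ?_⟩
  have hzt : Commute (z : G) t := mem_centralizer_singleton_iff.1 z.2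
  have hcop : (orderOf (z : G)).Coprime (orderOf t) := by
    rw [hz', ht]
    exact (Nat.coprime_primes hr Nat.prime_two).2 hr2
  rw [hzt.orderOf_mul_eq_mul_orderOf_of_coprime hcop, hz', ht]

theorem not_dvd_two (h : One χ x) {t : G} (ht : orderOf t = 2) {r n : ℕ} (hr : r.Prime) (hr2 : r ≠ 2)
    (h1 : r ^ n ∣ Nat.card G) (h2 : ¬ r ^ (n + 1) ∣ Nat.card G)
    (hd : r ∣ Nat.card (centralizer ({t} : Set G))) : ¬ r ^ n ∣ charDegree (χ : G → ℂ) := by
  obtain ⟨z, hz, hzt⟩ := exists_two ht hr hr2 hd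
  refine H604.OZ.not_dvd_deg' h hr h1 h2 (g := z) (g' := z * t) (by rw [hz]) (by rw [hzt]; exact Dvd.intro _ rfl) ?_
  rw [hz, hzt]
  have := hr.pos
  omega

end gen

namespace Mon

/-- the facts on the Monster -/
structure Facts (G : Type u) [Group G] : Prop where
  card : Nat.card G = NM
  c31 : ∃ z : G, orderOf z = 31 ∧ Nat.card (centralizer ({z} : Set G)) = 186 ∧
    ∀ y y' : G, z * y = y * z → z * y' = y' * z → ¬ 31 ∣ orderOf y → orderOf y = orderOf y' →
      ∃ k : G, z * k = k * z ∧ k * y * k⁻¹ = y'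
  c47 : ∃ z : G, orderOf z = 47 ∧ Nat.card (centralizer ({z} : Set G)) = 2 * 47
  c59 : ∃ z : G, orderOf z = 59 ∧ Nat.card (centralizer ({z} : Set G)) = 59
  c71 : ∃ z : G, orderOf z = 71 ∧ Nat.card (centralizer ({z} : Set G)) = 71
  inv : ∃ t : G, orderOf t = 2 ∧
    3 * 5 * 7 * 11 * 13 * 17 * 19 * 23 * 31 * 47 ∣ Nat.card (centralizer ({t} : Set G))
  e29 : ∃ g : G, 29 ∣ orderOf g ∧ orderOf g ≠ 29

variable {G : Type u} [Group G] [Finite G] {χ : IrrCharacter G} {x : G}

theorem Facts.div (F : Facts G) (h : One χ x) : Div (charDegree (χ : G → ℂ)) := by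
  obtain ⟨t, ht, htd⟩ := F.inv
  have key : ∀ (r n : ℕ), r.Prime → r ≠ 2 → r ^ n ∣ NM → ¬ r ^ (n + 1) ∣ NM →
      r ∣ 3 * 5 * 7 * 11 * 13 * 17 * 19 * 23 * 31 * 47 → ¬ r ^ n ∣ charDegree (χ : G → ℂ) :=
    fun r n hr hr2 h1 h2 hd => not_dvd_two h ht hr hr2 (by rw [F.card]; exact h1) (by rw [F.card]; exact h2)
      (hd.trans htd)
  constructor
  · rw [← F.card]
    exact H604.OZ.deg_dvd χ
  · obtain ⟨z, hz, hzt⟩ := exists_two ht Nat.prime_three (by norm_num) ((by norm_num :
      3 ∣ 3 * 5 * 7 * 11 * 13 * 17 * 19 * 23 * 31 * 47).trans htd)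
    exact H604.OZ.not_dvd_deg' h Nat.prime_two (by rw [F.card]; norm_num [NM]) (by rw [F.card]; norm_num [NM])
      (g := t) (g' := z * t) (by rw [ht]) (by rw [hzt]; norm_num) (by rw [ht, hzt]; norm_num)
  · exact key 3 20 (by norm_num) (by norm_num) (by norm_num [NM]) (by norm_num [NM]) (by norm_num)
  · exact key 5 9 (by norm_num) (by norm_num) (by norm_num [NM]) (by norm_num [NM]) (by norm_num)
  · exact key 7 6 (by norm_num) (by norm_num) (by norm_num [NM]) (by norm_num [NM]) (by norm_num)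
  · exact key 11 2 (by norm_num) (by norm_num) (by norm_num [NM]) (by norm_num [NM]) (by norm_num)
  · exact key 13 3 (by norm_num) (by norm_num) (by norm_num [NM]) (by norm_num [NM]) (by norm_num)
  · exact key 17 1 (by norm_num) (by norm_num) (by norm_num [NM]) (by norm_num [NM]) (by norm_num)
  · exact key 19 1 (by norm_num) (by norm_num) (by norm_num [NM]) (by norm_num [NM]) (by norm_num)
  · exact key 23 1 (by norm_num) (by norm_num) (by norm_num [NM]) (by norm_num [NM]) (by norm_num)
  · obtain ⟨g, hg, hg1⟩ := F.e29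
    have : Fact (Nat.Prime 29) := ⟨by norm_num⟩
    obtain ⟨z, hz⟩ := exists_prime_orderOf_dvd_card' (G := G) 29 (by rw [F.card]; norm_num [NM])
    exact H604.OZ.not_dvd_deg' h (r := 29) (n := 1) (by norm_num) (by rw [F.card]; norm_num [NM])
      (by rw [F.card]; norm_num [NM]) (g := g) (g' := z) hg (by rw [hz]) (by rw [hz]; exact hg1)
  · exact key 31 1 (by norm_num) (by norm_num) (by norm_num [NM]) (by norm_num [NM]) (by norm_num)
  · exact key 47 1 (by norm_num) (by norm_num) (by norm_num [NM]) (by norm_num [NM]) (by norm_num)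

/-- **The Monster has no irreducible character vanishing on exactly one class.** -/
theorem no_one [IsSimpleGroup G] (F : Facts G) (h : One χ x) : False := by
  have h4 : 4 ≤ cent x := H604.OZ.four_le_cent h (by rw [F.card]; norm_num [NM]) (by rw [F.card]; norm_num [NM])
  have D := F.div h
  have hd1 := one_lt_deg h
  -- `x` is regular for the primes 31, 47
  have hreg : ∀ {r c : ℕ} (_ : r.Prime) (_ : r ∣ NM) (_ : ¬ r ^ 2 ∣ NM) {z : G} (_ : orderOf z = r)
      (_ : Nat.card (centralizer ({z} : Set G)) = c) (_ : r < c), ¬ r ∣ orderOf x := by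
    intro r c hr hrN hr2 z hz hC hrc
    rcases Nat.lt_or_ge r (cent x) with h1 | h1
    · exact not_dvd_orderOf h (n := 1) hr (by rw [pow_one, F.card]; exact hrN) (by rw [F.card]; exact hr2)
        (by rwa [pow_one])
    · exact H849.OZ.not_dvd_of_le hr (by rw [F.card]; exact hr2) hz (by rw [hC]; exact hrc) h1
  have h47 : charDegree (χ : G → ℂ) % 47 = 1 ∨ charDegree (χ : G → ℂ) % 47 = 46 := by
    obtain ⟨z, hz, hC⟩ := F.c47
    exact H849.OZ.mod_of_two (p := 47) (by norm_num) (by norm_num) (by rw [F.card]; norm_num [NM])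
      (by rw [F.card]; norm_num [NM]) hz hC h
      (hreg (by norm_num) (by norm_num [NM]) (by norm_num [NM]) hz hC (by norm_num)) h4
  have h31 : charDegree (χ : G → ℂ) % 31 = 1 ∨ charDegree (χ : G → ℂ) % 31 = 30 := by
    obtain ⟨z, hz, hC, hcl⟩ := F.c31
    exact H849.OZ.mod_of_classes (p := 31) (by norm_num) (by norm_num) (by rw [F.card]; norm_num [NM])
      (by rw [F.card]; norm_num [NM]) hz hcl h
      (hreg (by norm_num) (by norm_num [NM]) (by norm_num [NM]) hz hC (by norm_num)) h4
  have hlt : ∀ {r : ℕ} (_ : r.Prime) (_ : r ∣ NM) (_ : ¬ r ^ 2 ∣ NM) (_ : r < cent x),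
      charDegree (χ : G → ℂ) % r = 1 ∨ charDegree (χ : G → ℂ) % r = r - 1 := fun hr hrN hr2 hc =>
    mod_of_lt h hr (by rw [F.card]; exact hrN) (by rw [F.card]; exact hr2) hc
  obtain ⟨z59, hz59, hC59⟩ := F.c59
  obtain ⟨z71, hz71, hC71⟩ := F.c71
  have h59 := H849.OZ.iso (p := 59) (by norm_num) (by norm_num) (by rw [F.card]; norm_num [NM])
    (by rw [F.card]; norm_num [NM]) hz59 hC59 h h4
  have h71 := H849.OZ.iso (p := 71) (by norm_num) (by norm_num) (by rw [F.card]; norm_num [NM])
    (by rw [F.card]; norm_num [NM]) hz71 hC71 h h4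
  have fin : charDegree (χ : G → ℂ) ≠ 1 := hd1.ne'
  by_cases hx71 : orderOf x = 71
  · have hc : 71 ≤ cent x := hx71 ▸ orderOf_le_cent x
    have g59 : charDegree (χ : G → ℂ) % 59 = 1 ∨ charDegree (χ : G → ℂ) % 59 = 58 :=
      hlt (by norm_num) (by norm_num [NM]) (by norm_num [NM]) (by omega)
    rcases h71 with h71 | h71 | ⟨h71, -⟩
    · by_cases h41 : 41 ∣ charDegree (χ : G → ℂ)
      · exact fin (none_41 D h41 g59 (Or.inl h71) h47 h31
          (hlt (by norm_num) (by norm_num [NM]) (by norm_num [NM]) (by omega)))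
      · exact fin (none_1 D h41 g59 (Or.inl h71) h47 h31)
    · by_cases h41 : 41 ∣ charDegree (χ : G → ℂ)
      · exact fin (none_41 D h41 g59 (Or.inr h71) h47 h31
          (hlt (by norm_num) (by norm_num [NM]) (by norm_num [NM]) (by omega)))
      · exact fin (none_1 D h41 g59 (Or.inr h71) h47 h31)
    · exact fin (none_71 D h71 g59 h31
        (hlt (by norm_num) (by norm_num [NM]) (by norm_num [NM]) (by omega))
        (hlt (by norm_num) (by norm_num [NM]) (by norm_num [NM]) (by omega))
        (hlt (by norm_num) (by norm_num [NM]) (by norm_num [NM]) (by omega))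
        (hlt (by norm_num) (by norm_num [NM]) (by norm_num [NM]) (by omega))
        (hlt (by norm_num) (by norm_num [NM]) (by norm_num [NM]) (by omega)) h47)
  · have g71 : charDegree (χ : G → ℂ) % 71 = 1 ∨ charDegree (χ : G → ℂ) % 71 = 70 := by
      rcases h71 with h71 | h71 | ⟨-, h71, -⟩
      · exact Or.inl h71
      · exact Or.inr h71
      · exact absurd h71 hx71
    rcases h59 with h59 | h59 | ⟨h59, hx59, -⟩
    · by_cases h41 : 41 ∣ charDegree (χ : G → ℂ)
      · have hx41 : orderOf x = 41 := by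
          have : Fact (Nat.Prime 41) := ⟨by norm_num⟩
          obtain ⟨z, hz⟩ := exists_prime_orderOf_dvd_card' (G := G) 41 (by rw [F.card]; norm_num [NM])
          rw [H604.OZ.orderOf_eq_of_conj (H604.OZ.conj_of_singular h (r := 41) (n := 1) (by norm_num)
            (by rw [F.card]; norm_num [NM]) (by rw [F.card]; norm_num [NM]) (by rwa [pow_one])
            (g := z) (by rw [hz])), hz]
        have hc : 41 ≤ cent x := hx41 ▸ orderOf_le_cent x
        exact fin (none_41 D h41 (Or.inl h59) g71 h47 h31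
          (hlt (by norm_num) (by norm_num [NM]) (by norm_num [NM]) (by omega)))
      · exact fin (none_1 D h41 (Or.inl h59) g71 h47 h31)
    · by_cases h41 : 41 ∣ charDegree (χ : G → ℂ)
      · have hx41 : orderOf x = 41 := by
          have : Fact (Nat.Prime 41) := ⟨by norm_num⟩
          obtain ⟨z, hz⟩ := exists_prime_orderOf_dvd_card' (G := G) 41 (by rw [F.card]; norm_num [NM])
          rw [H604.OZ.orderOf_eq_of_conj (H604.OZ.conj_of_singular h (r := 41) (n := 1) (by norm_num)
            (by rw [F.card]; norm_num [NM]) (by rw [F.card]; norm_num [NM]) (by rwa [pow_one])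
            (g := z) (by rw [hz])), hz]
        have hc : 41 ≤ cent x := hx41 ▸ orderOf_le_cent x
        exact fin (none_41 D h41 (Or.inr h59) g71 h47 h31
          (hlt (by norm_num) (by norm_num [NM]) (by norm_num [NM]) (by omega)))
      · exact fin (none_1 D h41 (Or.inr h59) g71 h47 h31)
    · have hc : 59 ≤ cent x := hx59 ▸ orderOf_le_cent x
      exact fin (none_59 D h59 (hlt (by norm_num) (by norm_num [NM]) (by norm_num [NM]) (by omega)) g71 h47 h31
        (hlt (by norm_num) (by norm_num [NM]) (by norm_num [NM]) (by omega)))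

end Mon

end Cfsg.Agent.H733.OZ
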